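import Mathlib

/-! Vanishing of an equivariant alternating form on the deep layers of a cyclic module. -/

set_option autoImplicit false

namespace Cfsg.Agent.H24.JA

structure Lev {ι Z : Type*} [AddCommGroup Z] (F : List ι → List ι → Z) (D : ι → Z →+ Z) : Prop where
  star : ∀ e l1 l2, F (e :: l1) l2 + F l1 (e :: l2) + F (e :: l1) (e :: l2) = D e (F l1 l2)
  anti : ∀ l1 l2, F l1 l2 = -F l2 l1
  perm : ∀ l l1 e l2, F l (l1 ++ e :: l2) = F l (e :: (l1 ++ l2))
  van : ∀ l1 l2, 5 ≤ l2.length → F l1 l2 = 0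
  dd : ∀ e e' l1 l2, D e (D e' (F l1 l2)) = 0
  two : ∀ z : Z, z + z = 0 → z = 0

namespace Lev

variable {ι Z : Type*} [AddCommGroup Z] {F : List ι → List ι → Z} {D : ι → Z →+ Z} (h : Lev F D)
include h

theorem shift (π : Z →+ Z) (n : ℕ)
    (h1 : ∀ e l1 l2, l1.length + l2.length + 1 = n → π (D e (F l1 l2)) = 0)
    (h2 : ∀ l1 l2, l1.length + l2.length = n + 1 → π (F l1 l2) = 0) (l1 l2 : List ι)
    (hn : l1.length + l2.length = n) : π (F l1 l2) = (-1 : ℤ) ^ l1.length • π (F [] (l1 ++ l2)) := by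
  induction l1 generalizing l2 with
  | nil => simp
  | cons e l1 ih =>
    simp only [List.length_cons] at hn
    have e1 := congrArg π (h.star e l1 l2)
    rw [map_add, map_add, h1 e l1 l2 (by omega), h2 (e :: l1) (e :: l2) (by simp; omega), add_zero,
      ih (e :: l2) (by simp; omega), h.perm] at e1
    rw [eq_neg_of_add_eq_zero_left e1, List.length_cons, pow_succ, List.cons_append]
    simp

theorem down (π : Z →+ Z) (h1 : ∀ e l1 l2, 4 ≤ l1.length + l2.length → π (D e (F l1 l2)) = 0)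
    (l1 l2 : List ι) (hn : 5 ≤ l1.length + l2.length) : π (F l1 l2) = 0 := by
  have : ∀ d, ∀ l1 l2 : List ι, 5 ≤ l1.length + l2.length → 9 ≤ l1.length + l2.length + d →
      π (F l1 l2) = 0 := by
    intro d
    induction d with
    | zero =>
      intro l1 l2 _ h9
      by_cases h5 : 5 ≤ l2.length
      · rw [h.van l1 l2 h5, map_zero]
      · rw [h.anti, h.van l2 l1 (by omega), neg_zero, map_zero]
    | succ d ih =>
      intro l1 l2 h5 h9
      rw [h.shift π _ (fun e l1' l2' he => h1 e l1' l2' (by omega))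
        (fun l1' l2' he => ih l1' l2' (by omega) (by omega)) l1 l2 rfl,
        h.van _ _ (by simpa using h5), map_zero, smul_zero]
  exact this 9 l1 l2 hn (by omega)

theorem levD (e : ι) (l1 l2 : List ι) (hn : 4 ≤ l1.length + l2.length) : D e (F l1 l2) = 0 := by
  have h5 := h.down (D e) (fun e' l1 l2 _ => h.dd e e' l1 l2)
  rcases hn.lt_or_eq with h4 | h4
  · exact h5 l1 l2 h4
  have hs := h.shift (D e) 4 (fun e' l1 l2 _ => h.dd e e' l1 l2) (fun l1 l2 he => h5 l1 l2 he.ge)
  have e1 := hs (l1 ++ l2) [] (by simpa using h4.symm)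
  rw [List.length_append, ← h4, List.append_nil, h.anti, map_neg] at e1
  rw [hs l1 l2 h4.symm, h.two (D e (F [] (l1 ++ l2))) (by
    have e2 : (-1 : ℤ) ^ 4 = 1 := by norm_num
    rw [e2, one_smul] at e1
    exact add_eq_zero_iff_neg_eq.2 e1), smul_zero]

theorem lev (l1 l2 : List ι) (hn : 5 ≤ l1.length + l2.length) : F l1 l2 = 0 :=
  h.down (AddMonoidHom.id Z) (fun e l1 l2 h4 => h.levD e l1 l2 h4) l1 l2 hn

end Lev

end Cfsg.Agent.H24.JA
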